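import Mathlib
set_option linter.all false

-- part: H147/Two
section
/-!
# Products of two conjugates of a non-split element of `GL₂` (helper147)

`F` a finite field, `τ ≠ 0`, `δ ≠ 0`. Every non-scalar `S` with `det S = δ ^ 2` and `tr S ≠ 2 δ` is a product of two
matrices of trace `τ` and determinant `δ`.
-/

set_option autoImplicit false

namespace Cfsg.Agent.H147.Two

open Matrix Polynomial

variable {F : Type*} [Field F]

/-- **the conic**: `p² + α p r + δ² r² - τ p - τ δ r + δ = 0` has a solution -/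
theorem conic [Finite F] (τ δ α : F) (hτ : τ ≠ 0) (hδ : δ ≠ 0) (hα : α ≠ 2 * δ) :
    ∃ p r : F, p ^ 2 + α * p * r + δ ^ 2 * r ^ 2 - τ * p - τ * δ * r + δ = 0 := by
  classical
  have := Fintype.ofFinite F
  by_cases h2 : ringChar F = 2
  · have h20 : (2 : F) = 0 := by
      have := ringChar.Nat.cast_ringChar (R := F)
      rw [h2] at this
      exact_mod_cast this
    have hα0 : α ≠ 0 := by
      intro h
      apply hα
      rw [h, h20, zero_mul]
    obtain ⟨s, hs⟩ := FiniteField.isSquare_of_char_two h2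
      (δ ^ 2 * (τ / α) ^ 2 + τ * δ * (τ / α) + δ)
    refine ⟨s, τ / α, ?_⟩
    have h1 : α * s * (τ / α) = τ * s := by
      field_simp
    rw [h1]
    linear_combination hs + (s * s - τ * δ * (τ / α)) * h20
  · have hodd : Fintype.card F % 2 = 1 := FiniteField.odd_card_of_char_ne_two h2
    have h20 : (2 : F) ≠ 0 := Ring.two_ne_zero h2
    have h40 : (4 : F) ≠ 0 := by
      have : (4 : F) = 2 * 2 := by norm_num
      rw [this]
      exact mul_ne_zero h20 h20
    -- find `P`, `r` with `P ^ 2 = (α² - 4 δ²) r² - 2 τ (α - 2 δ) r + τ² - 4 δ`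
    obtain ⟨P, r, hPr⟩ : ∃ P r : F, P ^ 2 = (α ^ 2 - 4 * δ ^ 2) * r ^ 2 - 2 * τ * (α - 2 * δ) * r + (τ ^ 2 - 4 * δ) := by
      by_cases hα2 : α + 2 * δ = 0
      · have hα' : α = -2 * δ := by linear_combination hα2
        refine ⟨0, -(τ ^ 2 - 4 * δ) / (8 * τ * δ), ?_⟩
        have h80 : (8 : F) ≠ 0 := by
          have : (8 : F) = 2 * 4 := by norm_num
          rw [this]
          exact mul_ne_zero h20 h40
        have hne : 8 * τ * δ ≠ 0 := mul_ne_zero (mul_ne_zero h80 hτ) hδ
        rw [hα']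
        field_simp
        ring
      · have hne : α ^ 2 - 4 * δ ^ 2 ≠ 0 := by
          have : α ^ 2 - 4 * δ ^ 2 = (α - 2 * δ) * (α + 2 * δ) := by ring
          rw [this]
          exact mul_ne_zero (sub_ne_zero.2 hα) hα2
        have hf : degree (X ^ 2 : F[X]) = 2 := by
          rw [degree_X_pow]; rfl
        have hg : degree (C (-(α ^ 2 - 4 * δ ^ 2)) * X ^ 2 + C (2 * τ * (α - 2 * δ)) * X + C (-(τ ^ 2 - 4 * δ)) : F[X]) = 2 :=
          degree_quadratic (neg_ne_zero.2 hne)
        obtain ⟨a, b, hab⟩ := FiniteField.exists_root_sum_quadratic hf hg hodd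
        refine ⟨a, b, ?_⟩
        simp only [eval_pow, eval_X, eval_add, eval_mul, eval_C] at hab
        linear_combination hab
    refine ⟨(P - α * r + τ) / 2, r, ?_⟩
    field_simp
    linear_combination hPr

/-- the companion matrix of `X² - τ X + δ` -/
def comp (τ δ : F) : Matrix (Fin 2) (Fin 2) F := !![0, -δ; 1, τ]

theorem comp_def (τ δ : F) : comp τ δ = !![0, -δ; 1, τ] := rfl

/-- a non-scalar matrix is conjugate to its companion matrix -/
theorem exists_conj_comp (M : Matrix (Fin 2) (Fin 2) F) (hM : ¬ (M 0 1 = 0 ∧ M 1 0 = 0 ∧ M 0 0 = M 1 1)) :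
    ∃ P : Matrix (Fin 2) (Fin 2) F, P.det ≠ 0 ∧ M * P = P * comp M.trace M.det := by
  by_cases h1 : M 1 0 = 0
  · by_cases h2 : M 0 1 = 0
    · have h3 : M 0 0 ≠ M 1 1 := fun h => hM ⟨h2, h1, h⟩
      refine ⟨!![1, M 0 0; 1, M 1 1], ?_, ?_⟩
      · rw [det_fin_two_of]
        intro h
        apply h3
        linear_combination -h
      · rw [trace_fin_two, det_fin_two, comp_def]
        ext i j
        fin_cases i <;> fin_cases j <;> simp [Matrix.mul_apply, Fin.sum_univ_two, h1, h2] <;> ring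
    · refine ⟨!![0, M 0 1; 1, M 1 1], ?_, ?_⟩
      · rw [det_fin_two_of]
        intro h
        apply h2
        linear_combination -h
      · rw [trace_fin_two, det_fin_two, comp_def]
        ext i j
        fin_cases i <;> fin_cases j <;> simp [Matrix.mul_apply, Fin.sum_univ_two, h1] <;> ring
  · refine ⟨!![1, M 0 0; 0, M 1 0], ?_, ?_⟩
    · rw [det_fin_two_of]
      intro h
      apply h1
      linear_combination h
    · rw [trace_fin_two, det_fin_two, comp_def]
      ext i j
      fin_cases i <;> fin_cases j <;> simp [Matrix.mul_apply, Fin.sum_univ_two] <;> ring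

/-- **two conjugates of a given matrix**: the 2×2 lemma -/
theorem exists_mul [Finite F] (τ δ : F) (hτ : τ ≠ 0) (hδ : δ ≠ 0) (S : Matrix (Fin 2) (Fin 2) F)
    (hS : ¬ (S 0 1 = 0 ∧ S 1 0 = 0 ∧ S 0 0 = S 1 1)) (hdet : S.det = δ ^ 2) (htr : S.trace ≠ 2 * δ) :
    ∃ M N : Matrix (Fin 2) (Fin 2) F, M.trace = τ ∧ M.det = δ ∧ N.trace = τ ∧ N.det = δ ∧ S = M * N := by
  obtain ⟨P, hP, hSP⟩ := exists_conj_comp S hS
  obtain ⟨p, r, hpr⟩ := conic τ δ S.trace hτ hδ htr
  set α := S.trace with hα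
  have hu : IsUnit P.det := hP.isUnit
  let M0 : Matrix (Fin 2) (Fin 2) F := !![p, r * δ ^ 2 + p * α - τ * δ; r, τ - p]
  let N0 : Matrix (Fin 2) (Fin 2) F :=
    !![-(r * δ ^ 2 + p * α - τ * δ) / δ, -((τ - p) * δ ^ 2 + (r * δ ^ 2 + p * α - τ * δ) * α) / δ;
       p / δ, (r * δ ^ 2 + p * α) / δ]
  have hM0t : M0.trace = τ := by
    simp [M0, trace_fin_two]
  have hM0d : M0.det = δ := by
    simp only [M0, det_fin_two_of]
    linear_combination -hpr
  have hN0t : N0.trace = τ := by
    simp only [N0, trace_fin_two_of]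
    field_simp
    ring
  have hMN : M0 * N0 = comp α (δ ^ 2) := by
    rw [comp_def]
    ext i j
    fin_cases i <;> fin_cases j <;> simp [M0, N0, Matrix.mul_apply, Fin.sum_univ_two] <;> field_simp
    · ring
    · linear_combination (δ ^ 2) * hpr
    · linear_combination hpr * (-1)
    · linear_combination (-α) * hpr
  have hN0d : N0.det = δ := by
    have h1 : M0.det * N0.det = δ ^ 2 := by
      rw [← det_mul, hMN, comp_def, det_fin_two_of]
      ring
    rw [hM0d] at h1
    have : δ * N0.det = δ * δ := by rw [h1]; ring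
    exact mul_left_cancel₀ hδ this
  refine ⟨P * M0 * P⁻¹, P * N0 * P⁻¹, ?_, ?_, ?_, ?_, ?_⟩
  · rw [trace_mul_comm, ← Matrix.mul_assoc, nonsing_inv_mul _ hu, Matrix.one_mul, hM0t]
  · rw [det_mul, det_mul, det_nonsing_inv, Ring.inverse_eq_inv', hM0d]
    field_simp
  · rw [trace_mul_comm, ← Matrix.mul_assoc, nonsing_inv_mul _ hu, Matrix.one_mul, hN0t]
  · rw [det_mul, det_mul, det_nonsing_inv, Ring.inverse_eq_inv', hN0d]
    field_simp
  · have h1 : P * M0 * P⁻¹ * (P * N0 * P⁻¹) = P * (M0 * N0) * P⁻¹ := by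
      calc P * M0 * P⁻¹ * (P * N0 * P⁻¹) = P * M0 * (P⁻¹ * P) * N0 * P⁻¹ := by
            simp only [Matrix.mul_assoc]
        _ = P * (M0 * N0) * P⁻¹ := by
            rw [nonsing_inv_mul _ hu, Matrix.mul_one]
            simp only [Matrix.mul_assoc]
    rw [h1, hMN, ← hdet, ← hSP, Matrix.mul_assoc, mul_nonsing_inv _ hu, Matrix.mul_one]

end Cfsg.Agent.H147.Two
end

-- part: H147/Irr
section
/-!
# Irreducible quadratic polynomials over a finite field (helper147)

`exists_tau` : some `X² - τ X - 1`, `τ ≠ 0`, has no root in `F`, `|F| ≥ 3`.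
`dvd_of_irr` : `X² - τ X + δ` without roots divides `X ^ (q ^ 2) - X`.
-/

set_option autoImplicit false

namespace Cfsg.Agent.H147.Irr

open Polynomial

variable {F : Type*} [Field F]

/-- the polynomial `X² - τ X - 1` without root, `τ ≠ 0` -/
theorem exists_tau [Fintype F] (h3 : 3 ≤ Fintype.card F) :
    ∃ τ : F, τ ≠ 0 ∧ ∀ a : F, a ^ 2 - τ * a - 1 ≠ 0 := by
  classical
  by_contra hcon
  push Not at hcon
  -- every nonzero `τ` is `a - a⁻¹`
  have h1 : ∀ τ : {τ : F // τ ≠ 0}, ∃ a : Fˣ, (a : F) - ((a⁻¹ : Fˣ) : F) = τ.1 := by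
    rintro ⟨τ, hτ⟩
    obtain ⟨a, ha⟩ := hcon τ hτ
    have ha0 : a ≠ 0 := by
      rintro rfl
      simp at ha
    refine ⟨Units.mk0 a ha0, ?_⟩
    simp only [Units.val_mk0, Units.val_inv_eq_inv_val]
    field_simp
    linear_combination ha
  choose f hf using h1
  have hinj : Function.Injective f := by
    intro s t hst
    apply Subtype.ext
    rw [← hf s, ← hf t, hst]
  have hbij : Function.Bijective f := by
    rw [Fintype.bijective_iff_injective_and_card]
    refine ⟨hinj, ?_⟩
    rw [Fintype.card_units, Fintype.card_subtype_compl]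
    simp
  have hsurj := hbij.2
  -- `1` and `-1`
  have key : ∀ a : Fˣ, (a : F) ^ 2 = -1 := by
    intro a
    obtain ⟨s, hs⟩ := hsurj a
    obtain ⟨t, ht⟩ := hsurj (-a⁻¹)
    have e1 := hf s
    have e2 := hf t
    rw [hs] at e1
    rw [ht] at e2
    have e3 : s = t := by
      apply Subtype.ext
      rw [← e1, ← e2]
      simp
      ring
    have e4 : a = -a⁻¹ := hs.symm.trans ((congrArg f e3).trans ht)
    have e5 : (a : F) = -((a⁻¹ : Fˣ) : F) := by
      conv_lhs => rw [e4]
      simp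
    have e6 : (a : F) * ((a⁻¹ : Fˣ) : F) = 1 := by simp
    have : (a : F) ^ 2 = -((a : F) * ((a⁻¹ : Fˣ) : F)) := by
      rw [sq]
      conv_lhs => rw [e5]
      rw [e5]
      simp
    rw [this, e6]
  have h11 : (1 : F) = -1 := by
    have := key 1
    simpa using this
  have hall : ∀ a : Fˣ, a = 1 := by
    intro a
    have h1 := key a
    rw [← h11] at h1
    have h2 : ((a : F) - 1) * ((a : F) - 1) = 0 := by
      linear_combination h1 - ((a : F) - 1) * h11
    have h3 : (a : F) - 1 = 0 := by simpa using mul_self_eq_zero.1 h2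
    apply Units.ext
    simpa using sub_eq_zero.1 h3
  have : Fintype.card Fˣ ≤ 1 := by
    rw [Fintype.card_le_one_iff]
    intro a b
    rw [hall a, hall b]
  rw [Fintype.card_units] at this
  omega

theorem natDegree_quad (τ δ : F) : (X ^ 2 - C τ * X + C δ : F[X]).natDegree = 2 := by
  compute_degree!

theorem monic_quad (τ δ : F) : (X ^ 2 - C τ * X + C δ : F[X]).Monic := by
  rw [Monic, leadingCoeff, natDegree_quad]
  simp

theorem irreducible_quad (τ δ : F) (h : ∀ a : F, a ^ 2 - τ * a + δ ≠ 0) :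
    Irreducible (X ^ 2 - C τ * X + C δ : F[X]) := by
  apply irreducible_of_degree_le_three_of_not_isRoot
  · rw [natDegree_quad]
    simp
  · intro a ha
    apply h a
    simpa [IsRoot] using ha

/-- an irreducible quadratic polynomial divides `X ^ (q ^ 2) - X` -/
theorem dvd_of_irr [Finite F] (τ δ : F) (h : ∀ a : F, a ^ 2 - τ * a + δ ≠ 0) :
    (X ^ 2 - C τ * X + C δ : F[X]) ∣ X ^ (Nat.card F) ^ 2 - X := by
  rw [← (irreducible_quad τ δ h).natDegree_dvd_iff_dvd_X_pow_card_pow_sub_X, natDegree_quad]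

/-- a linear polynomial divides `X ^ (q ^ 2) - X` -/
theorem dvd_of_lin [Finite F] (a : F) :
    (X - C a : F[X]) ∣ X ^ (Nat.card F) ^ 2 - X := by
  have := Fintype.ofFinite F
  rw [dvd_iff_isRoot, IsRoot, eval_sub, eval_pow, eval_X, sq, pow_mul, Nat.card_eq_fintype_card,
    FiniteField.pow_card, FiniteField.pow_card, sub_self]

/-- an element `x` of a group with `x ^ (q ^ 2 - 1) = 1` has order prime to `p` -/
theorem not_dvd_orderOf {G : Type*} [Group G] [Fintype F] (p : ℕ) [Fact p.Prime] [CharP F p] (x : G)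
    (hx : x ^ (Nat.card F ^ 2 - 1) = 1) : ¬ p ∣ orderOf x := by
  intro hp
  have h1 : orderOf x ∣ Nat.card F ^ 2 - 1 := orderOf_dvd_of_pow_eq_one hx
  obtain ⟨n, hpp, hn⟩ := FiniteField.card F p
  have h2 : p ∣ Nat.card F := by
    rw [Nat.card_eq_fintype_card, hn]
    exact dvd_pow_self p n.ne_zero
  have h3 : p ∣ Nat.card F ^ 2 := dvd_pow h2 two_ne_zero
  have h4 : p ∣ Nat.card F ^ 2 - 1 := hp.trans h1
  have h5 : 1 ≤ Nat.card F ^ 2 := Nat.one_le_pow _ _ Nat.card_pos
  have h6 : p ∣ 1 := by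
    have := Nat.dvd_sub h3 h4
    rwa [Nat.sub_sub_self h5] at this
  exact (Fact.out : p.Prime).one_lt.ne' (Nat.dvd_one.1 h6)

end Cfsg.Agent.H147.Irr
end
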